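import Cfsg.Agent.H11.SylowQuot
import Mathlib.GroupTheory.Sylow
import Cfsg.Prelude.Def_Transfer

/-!
The quotient of a Sylow 2-subgroup of the automorphism group of the code by its centre: maximal
subgroups and abelian subgroups of order 64.
-/

set_option autoImplicit false

namespace Cfsg.Agent.H11

open Cfsg

/-- A maximal subgroup of a group of order a power of two has index two. -/
theorem index_two_of_isCoatom {S : Type*} [Group S] [Finite S] {n : ℕ} (hS : Nat.card S = 2 ^ n)
    {M : Subgroup S} (hM : IsCoatom M) : M.index = 2 := by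
  have : Fact (Nat.Prime 2) := ⟨Nat.prime_two⟩
  obtain ⟨m, hmn, hm⟩ := (Nat.dvd_prime_pow Nat.prime_two).1 (hS ▸ M.card_subgroup_dvd_card)
  have hlt : m < n := by
    rcases hmn.lt_or_eq with h | h
    · exact h
    · exact absurd (Subgroup.eq_top_of_card_eq M (by rw [hm, hS, h])) hM.1
  obtain ⟨K, hK, hle⟩ := Sylow.exists_subgroup_card_pow_succ (p := 2)
    (by rw [hS]; exact pow_dvd_pow 2 hlt) hm
  have hne : K ≠ M := fun e => by
    rw [e, hm] at hK
    exact absurd (Nat.pow_right_injective (le_refl 2) hK) (by omega)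
  have htop : K = ⊤ := hM.2 K (lt_of_le_of_ne hle hne.symm)
  have h := M.index_mul_card
  rw [htop, Subgroup.card_top] at hK
  rw [hK, hm, pow_succ', mul_comm] at h
  exact Nat.eq_of_mul_eq_mul_left (n := 2 ^ m) (pow_pos two_pos m) (h.trans (mul_comm 2 (2 ^ m)))

/-- The order of the unitriangular group modulo its centre. -/
theorem UT5Q.card_UT5Q : Nat.card UT5Q = 2 ^ 9 := by
  refine (Nat.card_congr (Equiv.mk (fun x => (⟨UT5Q.code x, UT5Q.code_lt x⟩ : Fin 512))
    (fun n => UT5Q.ofCode n) UT5Q.ofCode_code ?_)).trans (by rw [Nat.card_fin]; norm_num)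
  decide +kernel

/-- The claims transported along an isomorphism. -/
theorem sylowQuot_facts {S : Type*} [Group S] (e : S ≃* UT5Q) :
    (∀ M : Subgroup S, IsCoatom M → Nat.card (Subgroup.center M) ≤ 8) ∧
      (∃ A : Subgroup S, Cfsg.IsElementaryAbelian 2 A ∧ Nat.card A = 64) ∧
      ∀ A B : Subgroup S, IsMulCommutative A → Nat.card A = 64 → IsMulCommutative B →
        Nat.card B = 64 → A = B := by
  have : Finite S := Finite.of_equiv UT5Q e.symm.toEquiv
  refine ⟨fun M hM => ?_, ?_, fun A B hA hA64 hB hB64 => ?_⟩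
  · have hi : (M.map e.toMonoidHom).index = 2 := by
      refine (M.index_map_equiv e).trans ?_
      exact index_two_of_isCoatom ((Nat.card_congr e.toEquiv).trans UT5Q.card_UT5Q) hM
    rw [Nat.card_congr (Subgroup.centerCongr (e.subgroupMap M)).toEquiv]
    exact UT5Q.card_center_le _ hi
  · refine ⟨UT5Q.bigElem.map e.symm.toMonoidHom, ⟨⟨⟨fun x y => ?_⟩⟩, fun a ha => ?_⟩, ?_⟩
    · obtain ⟨x, hx⟩ := x
      obtain ⟨y, hy⟩ := y
      obtain ⟨x', hx', rfl⟩ := Subgroup.mem_map.1 hx
      obtain ⟨y', hy', rfl⟩ := Subgroup.mem_map.1 hy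
      refine Subtype.ext ?_
      change e.symm x' * e.symm y' = e.symm y' * e.symm x'
      rw [← map_mul, ← map_mul, UT5Q.bigElem_commute hx' hy']
    · obtain ⟨a', ha', rfl⟩ := Subgroup.mem_map.1 ha
      change e.symm a' ^ 2 = 1
      rw [sq, ← map_mul, UT5Q.mul_self_of_mem_bigElem ha', map_one]
    · exact (Nat.card_congr (e.symm.subgroupMap UT5Q.bigElem).toEquiv).symm.trans UT5Q.card_bigElem
  · refine Subgroup.map_injective (f := e.toMonoidHom) e.injective ?_
    have key : ∀ C : Subgroup S, IsMulCommutative C → Nat.card C = 64 →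
        C.map e.toMonoidHom = UT5Q.bigElem := by
      intro C hC hC64
      refine UT5Q.eq_bigElem _ ⟨⟨fun x y => ?_⟩⟩ ?_
      · obtain ⟨x, hx⟩ := x
        obtain ⟨y, hy⟩ := y
        obtain ⟨x', hx', rfl⟩ := Subgroup.mem_map.1 hx
        obtain ⟨y', hy', rfl⟩ := Subgroup.mem_map.1 hy
        have h : x' * y' = y' * x' := congrArg Subtype.val (hC.is_comm.comm ⟨x', hx'⟩ ⟨y', hy'⟩)
        refine Subtype.ext ?_
        change e x' * e y' = e y' * e x'
        rw [← map_mul, ← map_mul, h]
      · exact (Nat.card_congr (e.subgroupMap C).toEquiv).symm.trans hC64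
    rw [key A hA hA64, key B hB hB64]

/-- The quotient of a Sylow 2-subgroup of the automorphism group by its centre. -/
theorem nonempty_sylowQuot_equiv (P : Sylow 2 M24) :
    Nonempty ((P : Subgroup M24) ⧸ Subgroup.center (P : Subgroup M24) ≃* UT5Q) := by
  obtain ⟨e⟩ := UT5.nonempty_equiv_sylow P
  refine ⟨(QuotientGroup.congr _ _ e ?_).trans UT5Q.quotEquiv⟩
  ext x
  simp only [Subgroup.mem_map, Subgroup.mem_center_iff]
  refine ⟨?_, fun h => ⟨e.symm x, fun g => e.injective ?_, e.apply_symm_apply x⟩⟩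
  · rintro ⟨y, hy, rfl⟩ g
    have := congrArg e (hy (e.symm g))
    simpa [map_mul] using this
  · simp [h (e g)]

end Cfsg.Agent.H11
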