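import Cfsg.Agent.H11.SylowData
import Cfsg.Agent.H11.M24Chain

/-!
A Sylow 2-subgroup of the automorphism group of the code as the unitriangular group of degree five
over two elements, and that group modulo its centre.
-/

set_option autoImplicit false

namespace Cfsg.Agent.H11

open Cfsg Cfsg.Agent.H12

/-- An upper unitriangular matrix of degree five over two elements: `aᵢⱼ` is the entry `(i, j)`. -/
@[ext]
structure UT5 where
  a12 : Bool
  a23 : Bool
  a34 : Bool
  a45 : Bool
  a13 : Bool
  a24 : Bool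
  a35 : Bool
  a14 : Bool
  a25 : Bool
  a15 : Bool
deriving DecidableEq

namespace UT5

instance : Mul UT5 := ⟨fun x y =>
  ⟨x.a12 ^^ y.a12, x.a23 ^^ y.a23, x.a34 ^^ y.a34, x.a45 ^^ y.a45,
    x.a13 ^^ y.a13 ^^ (x.a12 && y.a23), x.a24 ^^ y.a24 ^^ (x.a23 && y.a34),
    x.a35 ^^ y.a35 ^^ (x.a34 && y.a45),
    x.a14 ^^ y.a14 ^^ (x.a12 && y.a24) ^^ (x.a13 && y.a34),
    x.a25 ^^ y.a25 ^^ (x.a23 && y.a35) ^^ (x.a24 && y.a45),
    x.a15 ^^ y.a15 ^^ (x.a12 && y.a25) ^^ (x.a13 && y.a35) ^^ (x.a14 && y.a45)⟩⟩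

instance : One UT5 :=
  ⟨⟨false, false, false, false, false, false, false, false, false, false⟩⟩

instance : Inv UT5 := ⟨fun x =>
  let e := x.a13 ^^ (x.a12 && x.a23)
  let f := x.a24 ^^ (x.a23 && x.a34)
  let h := x.a14 ^^ (x.a12 && x.a24) ^^ (e && x.a34)
  ⟨x.a12, x.a23, x.a34, x.a45, e, f, x.a35 ^^ (x.a34 && x.a45), h,
    x.a25 ^^ (x.a23 && x.a35) ^^ (f && x.a45),
    x.a15 ^^ (x.a12 && x.a25) ^^ (e && x.a35) ^^ (h && x.a45)⟩⟩

theorem mul_def (x y : UT5) : x * y =
    ⟨x.a12 ^^ y.a12, x.a23 ^^ y.a23, x.a34 ^^ y.a34, x.a45 ^^ y.a45,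
      x.a13 ^^ y.a13 ^^ (x.a12 && y.a23), x.a24 ^^ y.a24 ^^ (x.a23 && y.a34),
      x.a35 ^^ y.a35 ^^ (x.a34 && y.a45),
      x.a14 ^^ y.a14 ^^ (x.a12 && y.a24) ^^ (x.a13 && y.a34),
      x.a25 ^^ y.a25 ^^ (x.a23 && y.a35) ^^ (x.a24 && y.a45),
      x.a15 ^^ y.a15 ^^ (x.a12 && y.a25) ^^ (x.a13 && y.a35) ^^ (x.a14 && y.a45)⟩ := rfl

theorem one_def : (1 : UT5) =
    ⟨false, false, false, false, false, false, false, false, false, false⟩ := rfl

/-- A bit as a residue. -/
def toZ (b : Bool) : ZMod 2 := if b then 1 else 0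

theorem toZ_xor : ∀ a b : Bool, toZ (a ^^ b) = toZ a + toZ b := by decide

theorem toZ_and : ∀ a b : Bool, toZ (a && b) = toZ a * toZ b := by decide

theorem toZ_injective : ∀ a b : Bool, toZ a = toZ b → a = b := by decide

theorem inv_mul_self : ∀ a b c d e f g h i j : Bool,
    (⟨a, b, c, d, e, f, g, h, i, j⟩ : UT5)⁻¹ * ⟨a, b, c, d, e, f, g, h, i, j⟩ = 1 := by
  decide +kernel

instance : Group UT5 where
  mul_assoc x y z := by
    ext <;> simp only [mul_def] <;> apply toZ_injective <;> simp only [toZ_xor, toZ_and] <;> ring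
  one_mul x := by ext <;> simp [mul_def, one_def]
  mul_one x := by ext <;> simp [mul_def, one_def]
  inv_mul_cancel x := inv_mul_self x.a12 x.a23 x.a34 x.a45 x.a13 x.a24 x.a35 x.a14 x.a25 x.a15

/-- The entries packed in ten bits. -/
def code (x : UT5) : ℕ :=
  x.a12.toNat + 2 * x.a23.toNat + 4 * x.a34.toNat + 8 * x.a45.toNat + 16 * x.a13.toNat +
    32 * x.a24.toNat + 64 * x.a35.toNat + 128 * x.a14.toNat + 256 * x.a25.toNat +
    512 * x.a15.toNat

/-- The matrix of ten bits. -/
def ofCode (n : ℕ) : UT5 :=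
  ⟨n.testBit 0, n.testBit 1, n.testBit 2, n.testBit 3, n.testBit 4, n.testBit 5, n.testBit 6,
    n.testBit 7, n.testBit 8, n.testBit 9⟩

theorem code_lt (x : UT5) : code x < 1024 := by
  have key : ∀ a b c d e f g h i j : Bool, code ⟨a, b, c, d, e, f, g, h, i, j⟩ < 1024 := by
    decide +kernel
  exact key x.a12 x.a23 x.a34 x.a45 x.a13 x.a24 x.a35 x.a14 x.a25 x.a15

theorem ofCode_code (x : UT5) : ofCode (code x) = x := by
  have key : ∀ a b c d e f g h i j : Bool,
      ofCode (code ⟨a, b, c, d, e, f, g, h, i, j⟩) = ⟨a, b, c, d, e, f, g, h, i, j⟩ := by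
    decide +kernel
  obtain ⟨a, b, c, d, e, f, g, h, i, j⟩ := x
  exact key a b c d e f g h i j

/-- The matrices are the numbers below 1024. -/
def equivFin : UT5 ≃ Fin 1024 where
  toFun x := ⟨code x, code_lt x⟩
  invFun n := ofCode n
  left_inv := ofCode_code
  right_inv := by decide +kernel

instance : Fintype UT5 := Fintype.ofEquiv _ equivFin.symm

theorem card_UT5 : Nat.card UT5 = 2 ^ 10 := by
  rw [Nat.card_congr equivFin, Nat.card_fin]
  norm_num

/-- The simple element of a number below four. -/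
def simple (k : ℕ) : UT5 := ofCode (2 ^ k)

/-- Right multiplication by a simple element on codes. -/
def step (k n : ℕ) : ℕ :=
  match k with
  | 0 => n ^^^ 1
  | 1 => n ^^^ 2 ^^^ ((n &&& 1) <<< 4)
  | 2 => n ^^^ 4 ^^^ (((n >>> 1) &&& 1) <<< 5) ^^^ (((n >>> 4) &&& 1) <<< 7)
  | _ => n ^^^ 8 ^^^ (((n >>> 2) &&& 1) <<< 6) ^^^ (((n >>> 5) &&& 1) <<< 8) ^^^
      (((n >>> 7) &&& 1) <<< 9)

theorem code_mul_simple (x : UT5) {k : ℕ} (hk : k < 4) : code (x * simple k) = step k (code x) := by
  have key : ∀ a b c d e f g h i j : Bool,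
      ([0, 1, 2, 3] : List ℕ).all (fun k => code (⟨a, b, c, d, e, f, g, h, i, j⟩ * simple k) ==
        step k (code ⟨a, b, c, d, e, f, g, h, i, j⟩)) = true := by
    decide +kernel
  have h := key x.a12 x.a23 x.a34 x.a45 x.a13 x.a24 x.a35 x.a14 x.a25 x.a15
  simp only [List.all_eq_true, beq_iff_eq] at h
  exact h k (by simp; omega)

/-- A word in the simple elements for a root element. -/
def rootWord : ℕ → List ℕ
  | 4 => [0, 1, 0, 1]
  | 5 => [1, 2, 1, 2]
  | 6 => [2, 3, 2, 3]
  | 7 => [0, 1, 2, 1, 2, 0, 2, 1, 2, 1]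
  | 8 => [1, 2, 3, 2, 3, 1, 3, 2, 3, 2]
  | 9 => [0, 1, 2, 3, 2, 3, 1, 3, 2, 3, 2, 0, 2, 3, 2, 3, 1, 3, 2, 3, 2, 1]
  | k => [k]

/-- A word for a matrix. -/
def wordOf (n : ℕ) : List ℕ :=
  [3, 2, 6, 1, 5, 8, 0, 4, 7, 9].flatMap fun k => if n.testBit k then rootWord k else []

/-- The simple elements generate. -/
theorem closure_simples : Submonoid.closure {x | ∃ k < 4, simple k = x} = ⊤ := by
  rw [eq_top_iff]
  intro x _
  have h : (List.range 1024).all (fun n => (wordOf n).foldl (fun m k => step k m) 0 == n &&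
      (wordOf n).all fun k => decide (k < 4)) = true := by decide +kernel
  simp only [List.all_eq_true, Bool.and_eq_true, beq_iff_eq, decide_eq_true_eq,
    List.mem_range] at h
  have key : ∀ (w : List ℕ) (y : UT5), (∀ k ∈ w, k < 4) →
      y ∈ Submonoid.closure {x | ∃ k < 4, simple k = x} →
      ∃ z ∈ Submonoid.closure {x | ∃ k < 4, simple k = x},
        code z = w.foldl (fun m k => step k m) (code y) := by
    intro w
    induction w with
    | nil => exact fun y _ hy => ⟨y, hy, rfl⟩
    | cons k w ih =>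
      intro y hw hy
      have hk := hw k (List.mem_cons_self ..)
      obtain ⟨z, hz, e⟩ := ih (y * simple k) (fun j hj => hw j (List.mem_cons_of_mem _ hj))
        (mul_mem hy (Submonoid.subset_closure ⟨k, hk, rfl⟩))
      exact ⟨z, hz, by rw [e, List.foldl_cons, code_mul_simple y hk]⟩
  obtain ⟨h1, h2⟩ := h _ (code_lt x)
  obtain ⟨z, hz, e⟩ := key _ 1 h2 (one_mem _)
  rw [show code (1 : UT5) = 0 by decide +kernel, h1] at e
  rwa [← ofCode_code z, e, ofCode_code] at hz

/-- The packed permutation of a matrix. -/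
def packed (n : ℕ) : ℕ := (sylowTable.getD (n / 32) []).getD (n % 32) 0

/-- The table checks. -/
theorem packed_check :
    ((List.range 1024).all fun n => isPerm (packed n) &&
      (n == 0 || (List.range 24).any fun i => app (packed n) i != i) &&
      (List.range 4).all fun k => isProd (packed (step k n)) (packed n) (packed (2 ^ k))) &&
      ((List.range 24).all fun i => app (packed 0) i == i) &&
      (List.range 4).all (fun k => preserves (packed (2 ^ k))) = true := by
  decide +kernel

/-- The permutation of a matrix. -/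
noncomputable def permOfUT (x : UT5) : Equiv.Perm GolayPt := permOf (packed (code x))

theorem code_simple {k : ℕ} (hk : k < 4) : code (simple k) = 2 ^ k := by
  interval_cases k <;> decide +kernel

theorem permOfUT_mul_simple (x : UT5) {k : ℕ} (hk : k < 4) :
    permOfUT (x * simple k) = permOfUT x * permOfUT (simple k) := by
  have h := packed_check
  simp only [Bool.and_eq_true, List.all_eq_true, List.mem_range] at h
  have hx := (h.1.1 _ (code_lt x)).2 k hk
  rw [← code_mul_simple x hk, ← code_simple hk] at hx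
  exact permOf_prod (h.1.1 _ (code_lt _)).1.1 (h.1.1 _ (code_lt _)).1.1
    (h.1.1 _ (code_lt _)).1.1 hx

theorem permOfUT_one : permOfUT 1 = 1 := by
  have h := packed_check
  simp only [Bool.and_eq_true, List.all_eq_true, List.mem_range, beq_iff_eq] at h
  refine Equiv.ext (forall_pt.2 fun n hn => ?_)
  have hc : code (1 : UT5) = 0 := by decide +kernel
  rw [permOfUT, hc, permOf_pt (h.1.1 0 (by norm_num)).1.1 hn, h.1.2 n hn, Equiv.Perm.one_apply]

/-- The embedding of the unitriangular group. -/
noncomputable def hom : UT5 →* Equiv.Perm GolayPt where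
  toFun := permOfUT
  map_one' := permOfUT_one
  map_mul' := by
    intro x y
    have hy : y ∈ Submonoid.closure {x | ∃ k < 4, simple k = x} := by
      rw [closure_simples]; exact Submonoid.mem_top y
    induction hy using Submonoid.closure_induction generalizing x with
    | mem g hg =>
      obtain ⟨k, hk, rfl⟩ := hg
      exact permOfUT_mul_simple x hk
    | one => rw [mul_one, permOfUT_one, mul_one]
    | mul u v _ _ hu hv => rw [← mul_assoc, hv, hu, hv u, mul_assoc]

theorem hom_injective : Function.Injective hom := by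
  rw [injective_iff_map_eq_one]
  intro x hx
  have h := packed_check
  simp only [Bool.and_eq_true, List.all_eq_true, List.mem_range, Bool.or_eq_true,
    List.any_eq_true, beq_iff_eq, bne_iff_ne] at h
  obtain ⟨⟨hp, hne⟩, -⟩ := h.1.1 _ (code_lt x)
  rcases hne with e | ⟨i, hi, hne⟩
  · rw [← ofCode_code x, e]
    decide +kernel
  · exfalso
    have e := Equiv.congr_fun hx (pt i)
    change permOf (packed (code x)) (pt i) = pt i at e
    rw [permOf_pt hp hi] at e
    exact hne (pt_inj (app_lt hp hi) hi e)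

theorem hom_mem (x : UT5) : hom x ∈ M24 := by
  have h := packed_check
  simp only [Bool.and_eq_true, List.all_eq_true, decide_eq_true_eq] at h
  have hx : x ∈ Submonoid.closure {x | ∃ k < 4, simple k = x} := by
    rw [closure_simples]; exact Submonoid.mem_top x
  induction hx using Submonoid.closure_induction with
  | mem g hg =>
    obtain ⟨k, hk, rfl⟩ := hg
    change permOf (packed (code (simple k))) ∈ M24
    rw [code_simple hk]
    exact permOf_mem_M24 (h.2 k (List.mem_range.2 hk))
  | one => rw [map_one]; exact one_mem _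
  | mul u v _ _ hu hv => rw [map_mul]; exact mul_mem hu hv

/-- A Sylow 2-subgroup of the automorphism group is unitriangular. -/
theorem nonempty_equiv_sylow (P : Sylow 2 M24) : Nonempty ((P : Subgroup M24) ≃* UT5) := by
  have : Fact (Nat.Prime 2) := ⟨Nat.prime_two⟩
  let f : UT5 →* M24 := hom.codRestrict M24 hom_mem
  have hf : Function.Injective f := fun x y e => hom_injective (congrArg Subtype.val e)
  have hfac : (Nat.card M24).factorization 2 = 10 := by
    rw [H11.card_M24, show (244823040 : ℕ) = 2 ^ 10 * 239085 by norm_num,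
      Nat.factorization_mul (by norm_num) (by norm_num), Nat.factorization_pow]
    simp [Nat.prime_two.factorization_self,
      Nat.factorization_eq_zero_of_not_dvd (show ¬ 2 ∣ 239085 by norm_num)]
  have hcard : Nat.card f.range = 2 ^ (Nat.card M24).factorization 2 := by
    rw [hfac, Nat.card_congr (MonoidHom.ofInjective hf).symm.toEquiv, card_UT5]
  exact ⟨(P.equiv (Sylow.ofCard f.range hcard)).trans (MonoidHom.ofInjective hf).symm⟩

end UT5

end Cfsg.Agent.H11
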