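import Cfsg.Agent.H11.SylowModel

/-!
The unitriangular group of degree five over two elements modulo its centre: its elementary
abelian subgroup of order 64 is the only abelian one of that order, and the centre of a maximal
subgroup has order at most 8.
-/

set_option autoImplicit false

namespace Cfsg.Agent.H11

open Cfsg

/-- An upper unitriangular matrix of degree five without its corner entry. -/
@[ext]
structure UT5Q where
  a12 : Bool
  a23 : Bool
  a34 : Bool
  a45 : Bool
  a13 : Bool
  a24 : Bool
  a35 : Bool
  a14 : Bool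
  a25 : Bool
deriving DecidableEq

namespace UT5Q

/-- The matrix with corner zero. -/
def lift (x : UT5Q) : UT5 :=
  ⟨x.a12, x.a23, x.a34, x.a45, x.a13, x.a24, x.a35, x.a14, x.a25, false⟩

/-- Forget the corner. -/
def proj (x : UT5) : UT5Q :=
  ⟨x.a12, x.a23, x.a34, x.a45, x.a13, x.a24, x.a35, x.a14, x.a25⟩

instance : Mul UT5Q := ⟨fun x y => proj (lift x * lift y)⟩

instance : One UT5Q := ⟨proj 1⟩

instance : Inv UT5Q := ⟨fun x => proj (lift x)⁻¹⟩

theorem mul_def (x y : UT5Q) : x * y = proj (lift x * lift y) := rfl

theorem one_def : (1 : UT5Q) = proj 1 := rfl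

theorem inv_def (x : UT5Q) : x⁻¹ = proj (lift x)⁻¹ := rfl

theorem proj_mul (x y : UT5) : proj (x * y) = proj x * proj y := by
  ext <;> simp [mul_def, proj, lift, UT5.mul_def]

theorem proj_lift (x : UT5Q) : proj (lift x) = x := rfl

instance : Group UT5Q where
  mul_assoc x y z := by
    rw [← proj_lift x, ← proj_lift y, ← proj_lift z, ← proj_mul, ← proj_mul, ← proj_mul,
      ← proj_mul, mul_assoc]
  one_mul x := by rw [one_def, ← proj_lift x, ← proj_mul, one_mul]
  mul_one x := by rw [one_def, ← proj_lift x, ← proj_mul, mul_one]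
  inv_mul_cancel x := by
    rw [inv_def]
    conv_lhs => arg 2; rw [← proj_lift x]
    rw [← proj_mul, inv_mul_cancel, ← one_def]

/-- The entries packed in nine bits. -/
def code (x : UT5Q) : ℕ := UT5.code (lift x)

/-- The element of nine bits. -/
def ofCode (n : ℕ) : UT5Q := proj (UT5.ofCode n)

theorem ofCode_code (x : UT5Q) : ofCode (code x) = x := by
  rw [ofCode, code, UT5.ofCode_code, proj_lift]

theorem code_lt (x : UT5Q) : code x < 512 := by
  have key : ∀ a b c d e f g h i : Bool, code ⟨a, b, c, d, e, f, g, h, i⟩ < 512 := by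
    decide +kernel
  exact key x.a12 x.a23 x.a34 x.a45 x.a13 x.a24 x.a35 x.a14 x.a25

/-- The quotient map. -/
def projHom : UT5 →* UT5Q where
  toFun := proj
  map_one' := rfl
  map_mul' := proj_mul

instance : Fintype UT5Q := Fintype.ofSurjective proj fun x => ⟨lift x, proj_lift x⟩

/-- The kernel of the quotient map is the centre. -/
theorem ker_projHom : projHom.ker = Subgroup.center UT5 := by
  ext x
  rw [MonoidHom.mem_ker, Subgroup.mem_center_iff]
  constructor
  · intro h g
    have h' : proj x = proj 1 := h
    simp only [proj, UT5.one_def, UT5Q.mk.injEq] at h'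
    obtain ⟨h1, h2, h3, h4, h5, h6, h7, h8, h9⟩ := h'
    ext <;> simp [UT5.mul_def, h1, h2, h3, h4, h5, h6, h7, h8, h9, Bool.xor_comm]
  · intro h
    have hc : (List.range 1024).all (fun n =>
        !((List.range 4).all fun k =>
          decide (UT5.simple k * UT5.ofCode n = UT5.ofCode n * UT5.simple k)) ||
          decide (proj (UT5.ofCode n) = proj 1)) = true := by decide +kernel
    simp only [List.all_eq_true, Bool.or_eq_true, Bool.not_eq_true', List.mem_range] at hc
    rcases hc _ (UT5.code_lt x) with e | e
    · exfalso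
      rw [UT5.ofCode_code] at e
      have : ((List.range 4).all fun k => decide (UT5.simple k * x = x * UT5.simple k)) = true := by
        simp [h]
      rw [this] at e
      exact absurd e (by simp)
    · rw [decide_eq_true_eq, UT5.ofCode_code] at e
      exact e

/-- The quotient by the centre. -/
noncomputable def quotEquiv : UT5 ⧸ Subgroup.center UT5 ≃* UT5Q :=
  (QuotientGroup.quotientMulEquivOfEq ker_projHom.symm).trans
    (QuotientGroup.quotientKerEquivOfSurjective projHom fun x => ⟨lift x, proj_lift x⟩)

/-- The elementary abelian subgroup of order 64. -/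
def bigElem : Subgroup UT5Q where
  carrier := {x | x.a23 = false ∧ x.a34 = false ∧ x.a24 = false}
  one_mem' := ⟨rfl, rfl, rfl⟩
  mul_mem' := by
    rintro x y ⟨h1, h2, h3⟩ ⟨h4, h5, h6⟩
    simp [Set.mem_ofPred_eq, mul_def, proj, lift, UT5.mul_def, h1, h2, h3, h4, h5, h6]
  inv_mem' := by
    rintro x ⟨h1, h2, h3⟩
    simp [Set.mem_ofPred_eq, inv_def, proj, lift, h1, h2, h3, Inv.inv]

theorem mem_bigElem {x : UT5Q} :
    x ∈ bigElem ↔ x.a23 = false ∧ x.a34 = false ∧ x.a24 = false := Iff.rfl

/-- The coset representative modulo the big subgroup. -/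
def rep (x : UT5Q) : UT5Q :=
  ⟨false, x.a23, x.a34, false, false, x.a24, false, false, false⟩

/-- The tests on one element for the big subgroup. -/
def bigTest (x : UT5Q) : Bool :=
  let y := (rep x)⁻¹ * x
  (!y.a23 && !y.a34 && !y.a24) && (!(!x.a23 && !x.a34 && !x.a24) || decide (x * x = 1))

/-- Checks on the big subgroup. -/
theorem bigTest_all (x : UT5Q) : bigTest x = true := by
  have key : ∀ a b c d e f g h i : Bool, bigTest ⟨a, b, c, d, e, f, g, h, i⟩ = true := by
    decide +kernel
  exact key x.a12 x.a23 x.a34 x.a45 x.a13 x.a24 x.a35 x.a14 x.a25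

/-- A representative splits off an element of the big subgroup. -/
theorem rep_inv_mul_mem (x : UT5Q) : (rep x)⁻¹ * x ∈ bigElem := by
  have h := bigTest_all x
  simp only [bigTest, Bool.and_eq_true, Bool.not_eq_true'] at h
  exact mem_bigElem.2 ⟨h.1.1.1, h.1.1.2, h.1.2⟩

/-- The big subgroup is elementary abelian. -/
theorem mul_self_of_mem_bigElem {x : UT5Q} (hx : x ∈ bigElem) : x * x = 1 := by
  have h := bigTest_all x
  obtain ⟨h1, h2, h3⟩ := mem_bigElem.1 hx
  simp only [bigTest, Bool.and_eq_true, Bool.or_eq_true, Bool.not_eq_true', decide_eq_true_eq] at h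
  rcases h.2 with e | e
  · simp [h1, h2, h3] at e
  · exact e

theorem bigElem_commute {x y : UT5Q} (hx : x ∈ bigElem) (hy : y ∈ bigElem) : x * y = y * x := by
  have h := mul_self_of_mem_bigElem (mul_mem hx hy)
  have e := inv_eq_of_mul_eq_one_right h
  rw [mul_inv_rev, inv_eq_of_mul_eq_one_right (mul_self_of_mem_bigElem hx),
    inv_eq_of_mul_eq_one_right (mul_self_of_mem_bigElem hy)] at e
  exact e.symm

/-- A set with checked codes is at most as large as the check list. -/
theorem card_le_filter (s : Set UT5Q) (p : ℕ → Bool) (h : ∀ x ∈ s, p (code x) = true) {c : ℕ}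
    (hc : decide (((List.range 512).filter p).length ≤ c) = true) : Nat.card s ≤ c := by
  classical
  refine le_trans ?_ (le_trans (List.toFinset_card_of_nodup
    (List.nodup_range.filter p)).le (of_decide_eq_true hc))
  rw [← Nat.card_eq_finsetCard]
  refine Nat.card_le_card_of_injective (fun x : s => ⟨code x, ?_⟩) fun x y e => ?_
  · simp [code_lt, h x x.2]
  · have e' : code x.1 = code y.1 := congrArg Subtype.val e
    exact Subtype.ext (by rw [← ofCode_code x.1, e', ofCode_code])

/-- The number of the big subgroup. -/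
theorem card_bigElem : Nat.card bigElem = 64 := by
  let f : bigElem → Bool × Bool × Bool × Bool × Bool × Bool :=
    fun x => (x.1.a12, x.1.a45, x.1.a13, x.1.a35, x.1.a14, x.1.a25)
  rw [Nat.card_congr (Equiv.ofBijective f ⟨?_, ?_⟩), Nat.card_eq_fintype_card]
  · rfl
  · intro x y e
    obtain ⟨h1, h2, h3⟩ := mem_bigElem.1 x.2
    obtain ⟨h4, h5, h6⟩ := mem_bigElem.1 y.2
    simp only [f, Prod.mk.injEq] at e
    obtain ⟨e1, e2, e3, e4, e5, e6⟩ := e
    exact Subtype.ext (UT5Q.ext e1 (h1.trans h4.symm) (h2.trans h5.symm) e2 e3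
      (h3.trans h6.symm) e4 e5 e6)
  · rintro ⟨a, d, e, g, h, i⟩
    exact ⟨⟨⟨a, false, false, d, e, false, g, h, i⟩, rfl, rfl, rfl⟩, rfl⟩

/-- The commuting test for an element of the big subgroup. -/
def fixTest (r : UT5Q) (n : ℕ) : Bool :=
  let y := ofCode n
  !y.a23 && !y.a34 && !y.a24 && decide (r * y = y * r)

/-- The counts of fixed elements of the big subgroup. -/
theorem fixTest_check : ∀ b c f : Bool, ∀ b' c' f' : Bool,
    (let r : UT5Q := ⟨false, b, c, false, false, f, false, false, false⟩
     let r' : UT5Q := ⟨false, b', c', false, false, f', false, false, false⟩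
     (!(b || c || f) || decide (((List.range 512).filter (fixTest r)).length ≤ 16)) &&
       (!((b || c || f) && (b' || c' || f') && ((b != b') || (c != c') || (f != f')) && ((b && c') == (b' && c))) ||
         decide (((List.range 512).filter fun n => fixTest r n && fixTest r' n).length ≤ 8)))
      = true := by
  decide +kernel

/-- The first entries above the diagonal of commuting elements. -/
theorem cross_eq_of_commute {x y : UT5Q} (h : x * y = y * x) :
    (x.a23 && y.a34) = (y.a23 && x.a34) := by
  have e := congrArg UT5Q.a24 h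
  simp only [mul_def, proj, lift, UT5.mul_def] at e
  revert e
  generalize x.a23 = a; generalize y.a34 = b; generalize y.a23 = c; generalize x.a34 = d
  generalize x.a24 = u; generalize y.a24 = v
  revert a b c d u v
  decide

/-- The big subgroup is the only abelian subgroup of order 64. -/
theorem eq_bigElem (A : Subgroup UT5Q) (hA : IsMulCommutative A) (h64 : Nat.card A = 64) :
    A = bigElem := by
  classical
  by_cases hle : A ≤ bigElem
  · exact Subgroup.eq_of_le_of_card_ge hle (by rw [h64, card_bigElem])
  exfalso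
  have hcomm : ∀ {x y}, x ∈ A → y ∈ A → x * y = y * x := fun {x y} hx hy =>
    congrArg Subtype.val (hA.is_comm.comm ⟨x, hx⟩ ⟨y, hy⟩)
  obtain ⟨x, hx, hx0⟩ := SetLike.not_le_iff_exists.1 hle
  set K : Set UT5Q := {k | k ∈ A ∧ k ∈ bigElem} with hK
  have hfix : ∀ {z}, z ∈ A → ∀ k ∈ K, fixTest (rep z) (code k) = true := by
    intro z hz k hk
    obtain ⟨k1, k2, k3⟩ := mem_bigElem.1 hk.2
    have e : rep z * k = k * rep z := by
      have hr : rep z = z * ((rep z)⁻¹ * z)⁻¹ := by group
      have c1 : Commute z k := hcomm hz hk.1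
      have c2 : Commute ((rep z)⁻¹ * z)⁻¹ k :=
        (show Commute ((rep z)⁻¹ * z) k from bigElem_commute (rep_inv_mul_mem z) hk.2).inv_left
      rw [hr]; exact (c1.mul_left c2).eq
    simp [fixTest, ofCode_code, k1, k2, k3, e]
  have hne : ∀ z : UT5Q, z ∉ bigElem → (z.a23 || z.a34 || z.a24) = true := by
    intro z hz
    rw [mem_bigElem] at hz
    revert hz
    cases z.a23 <;> cases z.a34 <;> cases z.a24 <;> simp
  set Af := (Finset.univ : Finset UT5Q).filter (· ∈ A) with hAf
  have hAcard : Af.card = 64 := by
    rw [← h64, ← Nat.card_eq_finsetCard]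
    exact Nat.card_congr (Equiv.subtypeEquivRight fun z => by simp [hAf])
  have hmul : 64 ≤ Nat.card K * (Af.image rep).card := by
    rw [← hAcard]
    refine Finset.card_le_mul_card_image _ _ fun r hr => ?_
    obtain ⟨z, hz, rfl⟩ := Finset.mem_image.1 hr
    rw [← Nat.card_eq_finsetCard]
    refine Nat.card_le_card_of_injective (fun w => ⟨z⁻¹ * w.1, ?_⟩) fun w w' e => ?_
    · obtain ⟨hw, hwr⟩ := Finset.mem_filter.1 w.2
      have hwA : w.1 ∈ A := (Finset.mem_filter.1 hw).2
      have hzA : z ∈ A := (Finset.mem_filter.1 hz).2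
      refine ⟨mul_mem (inv_mem hzA) hwA, ?_⟩
      have e : z⁻¹ * w.1 = ((rep z)⁻¹ * z)⁻¹ * ((rep w.1)⁻¹ * w.1) := by rw [hwr]; group
      rw [e]
      exact mul_mem (inv_mem (rep_inv_mul_mem z)) (rep_inv_mul_mem w.1)
    · exact Subtype.ext (mul_left_cancel (congrArg Subtype.val e))
  have h16 : Nat.card K ≤ 16 := by
    refine card_le_filter K (fixTest (rep x)) (hfix hx) ?_
    have h := fixTest_check x.a23 x.a34 x.a24 false false false
    simp only [hne x hx0, Bool.and_eq_true, Bool.not_true, Bool.false_or] at h
    exact h.1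
  obtain ⟨y, hy, hy0, hyr⟩ : ∃ y ∈ A, y ∉ bigElem ∧ rep y ≠ rep x := by
    by_contra hno
    push Not at hno
    have : Af.image rep ⊆ {rep x, ⟨false, false, false, false, false, false, false, false, false⟩} := by
      intro r hr
      obtain ⟨z, hz, rfl⟩ := Finset.mem_image.1 hr
      by_cases hz0 : z ∈ bigElem
      · obtain ⟨z1, z2, z3⟩ := mem_bigElem.1 hz0
        simp [rep, z1, z2, z3]
      · simp [hno z (Finset.mem_filter.1 hz).2 hz0]
    have h2 : (Af.image rep).card ≤ 2 := (Finset.card_le_card this).trans Finset.card_le_two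
    have := Nat.mul_le_mul h16 h2
    omega
  have h8 : Nat.card K ≤ 8 := by
    refine card_le_filter K (fun n => fixTest (rep x) n && fixTest (rep y) n)
      (fun k hk => by simp [hfix hx k hk, hfix hy k hk]) ?_
    have h := fixTest_check x.a23 x.a34 x.a24 y.a23 y.a34 y.a24
    have hc := cross_eq_of_commute (hcomm hx hy)
    have hd : ((x.a23 != y.a23) || (x.a34 != y.a34) || (x.a24 != y.a24)) = true := by
      by_contra hd
      simp only [Bool.or_eq_true, bne_iff_ne, not_or, not_not] at hd
      exact hyr (by simp [rep, hd.1.1, hd.1.2, hd.2])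
    simp only [hne x hx0, hne y hy0, hd, hc, Bool.and_eq_true, beq_self_eq_true, Bool.not_true,
      Bool.false_or, Bool.and_self] at h
    exact h.2
  have hall : ∀ b c f : Bool, (⟨false, b, c, false, false, f, false, false, false⟩ : UT5Q) ∈
      Af.image rep := by
    set R := (Finset.univ : Finset (Bool × Bool × Bool)).image fun t =>
      (⟨false, t.1, t.2.1, false, false, t.2.2, false, false, false⟩ : UT5Q) with hR
    have hsub : Af.image rep ⊆ R := by
      intro r hr
      obtain ⟨z, -, rfl⟩ := Finset.mem_image.1 hr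
      exact Finset.mem_image.2 ⟨(z.a23, z.a34, z.a24), Finset.mem_univ _, rfl⟩
    have hR8 : R.card ≤ 8 := Finset.card_image_le.trans (by simp)
    have : 8 ≤ (Af.image rep).card := by nlinarith
    have heq := Finset.eq_of_subset_of_card_le hsub (by omega)
    intro b c f
    rw [heq]
    exact Finset.mem_image.2 ⟨(b, c, f), Finset.mem_univ _, rfl⟩
  obtain ⟨u, hu, hur⟩ := Finset.mem_image.1 (hall true false false)
  obtain ⟨v, hv, hvr⟩ := Finset.mem_image.1 (hall false true false)
  simp only [rep, UT5Q.mk.injEq] at hur hvr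
  have := cross_eq_of_commute (hcomm (Finset.mem_filter.1 hu).2 (Finset.mem_filter.1 hv).2)
  rw [hur.2.1, hvr.2.2.1, hvr.2.1] at this
  simp at this

/-- The elements used for the centre of a subgroup of index two. -/
def indexTwoTest (h : ℕ) (n : ℕ) : Bool :=
  let y := ofCode n
  ([16, 32, 64, 128, 256].all fun s => decide (ofCode s * y = y * ofCode s)) &&
    (List.range 4).all fun i =>
      (h.testBit i || decide (ofCode (2 ^ i) * y = y * ofCode (2 ^ i))) &&
        (List.range 4).all fun j => !(h.testBit i && h.testBit j) ||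
          decide (ofCode (2 ^ i) * ofCode (2 ^ j) * y = y * (ofCode (2 ^ i) * ofCode (2 ^ j)))

/-- The counts for subgroups of index two. -/
theorem indexTwoTest_check :
    (List.range 16).all (fun h => h == 0 ||
      decide (((List.range 512).filter (indexTwoTest h)).length ≤ 8)) = true ∧
    ([(16, 3), (32, 6), (64, 12), (128, 33), (256, 66)] : List (ℕ × ℕ)).all
      (fun sw => decide (ofCode sw.1 = ofCode sw.2 * ofCode sw.2)) = true := by
  decide +kernel

/-- The centre of a subgroup of index two has order at most 8. -/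
theorem card_center_le (M : Subgroup UT5Q) (hM : M.index = 2) :
    Nat.card (Subgroup.center M) ≤ 8 := by
  classical
  set out : ℕ → Bool := fun k => decide (ofCode (2 ^ k) ∉ M) with hout
  set h := (out 0).toNat + 2 * (out 1).toNat + 4 * (out 2).toNat + 8 * (out 3).toNat with hh
  have hbit : ∀ k < 4, h.testBit k = out k := by
    have key : ∀ a b c d : Bool, (a.toNat + 2 * b.toNat + 4 * c.toNat + 8 * d.toNat).testBit 0 = a ∧
        (a.toNat + 2 * b.toNat + 4 * c.toNat + 8 * d.toNat).testBit 1 = b ∧
        (a.toNat + 2 * b.toNat + 4 * c.toNat + 8 * d.toNat).testBit 2 = c ∧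
        (a.toNat + 2 * b.toNat + 4 * c.toNat + 8 * d.toNat).testBit 3 = d := by decide
    intro k hk
    obtain ⟨h0, h1, h2, h3⟩ := key (out 0) (out 1) (out 2) (out 3)
    interval_cases k <;> assumption
  have hne : h ≠ 0 := by
    intro h0
    have hin : ∀ k < 4, ofCode (2 ^ k) ∈ M := fun k hk => by
      have := hbit k hk
      rw [h0, Nat.zero_testBit] at this
      simpa [hout] using this.symm
    have : M = ⊤ := by
      rw [eq_top_iff]
      intro x hxtop
      clear hxtop
      obtain ⟨z, rfl⟩ : ∃ z, proj z = x := ⟨lift x, proj_lift x⟩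
      have hz : z ∈ Submonoid.closure {x | ∃ k < 4, UT5.simple k = x} := by
        rw [UT5.closure_simples]; exact Submonoid.mem_top z
      induction hz using Submonoid.closure_induction with
      | mem g hg => obtain ⟨k, hk, rfl⟩ := hg; exact hin k hk
      | one => exact one_mem M
      | mul u v _ _ hu hv => rw [proj_mul]; exact mul_mem hu hv
    rw [this, Subgroup.index_top] at hM
    norm_num at hM
  have hlt : h < 16 := by
    have := Bool.toNat_le (out 0); have := Bool.toNat_le (out 1)
    have := Bool.toNat_le (out 2); have := Bool.toNat_le (out 3)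
    omega
  have hck := indexTwoTest_check
  simp only [List.all_eq_true, List.mem_range, Bool.or_eq_true, beq_iff_eq] at hck
  rcases hck.1 h hlt with e | hlen
  · exact absurd e hne
  calc Nat.card (Subgroup.center M)
      = Nat.card ((fun c : Subgroup.center M => ((c : M) : UT5Q)) '' Set.univ) := by
        rw [Nat.card_image_of_injective (f := fun c : Subgroup.center M => ((c : M) : UT5Q))
            (Subtype.val_injective.comp Subtype.val_injective),
          Nat.card_univ]
    _ ≤ 8 := by
      refine card_le_filter _ (indexTwoTest h) ?_ hlen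
      rintro _ ⟨c, -, rfl⟩
      have comm : ∀ m ∈ M, m * ((c : M) : UT5Q) = ((c : M) : UT5Q) * m := fun m hm =>
        congrArg Subtype.val (Subgroup.mem_center_iff.1 c.2 ⟨m, hm⟩)
      simp only [indexTwoTest, ofCode_code, Bool.and_eq_true, List.all_eq_true, decide_eq_true_eq,
        Bool.or_eq_true, Bool.not_eq_true', List.mem_range, Bool.and_eq_false_iff]
      refine ⟨fun s hs => comm _ ?_, fun i hi => ⟨?_, fun j hj => ?_⟩⟩
      · have hsq : ∃ w, (s, w) ∈ ([(16, 3), (32, 6), (64, 12), (128, 33), (256, 66)] :
            List (ℕ × ℕ)) := by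
          simp only [List.mem_cons, List.not_mem_nil, or_false] at hs
          rcases hs with rfl | rfl | rfl | rfl | rfl <;>
            simp only [List.mem_cons, Prod.mk.injEq] <;> simp
        obtain ⟨w, hw⟩ := hsq
        have := hck.2 _ hw
        rw [decide_eq_true_eq] at this
        rw [this]
        exact Subgroup.mul_self_mem_of_index_two hM _
      · rw [hbit i hi]
        by_cases hm : ofCode (2 ^ i) ∈ M
        · exact Or.inr (comm _ hm)
        · exact Or.inl (by simp [hout, hm])
      · rw [hbit i hi, hbit j hj]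
        by_cases hm : ofCode (2 ^ i) ∈ M
        · exact Or.inl (Or.inl (by simp [hout, hm]))
        by_cases hm' : ofCode (2 ^ j) ∈ M
        · exact Or.inl (Or.inr (by simp [hout, hm']))
        · exact Or.inr (comm _ ((Subgroup.mul_mem_iff_of_index_two hM).2 (by simp [hm, hm'])))

end UT5Q

end Cfsg.Agent.H11
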